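import Cfsg.Agent.H749.Herm
import Cfsg.Agent.H450.UF.Count

/-!
# Hermitian forms: transvections, torus elements, maps commuting with the special unitary group (helper8)

* `exists_tau` : the unitary transvection;
* `scal_of_comm` : a linear map commuting with `SU` is a scalar;
* `exists_hyp` : a hyperbolic pair and (dimension at least 3) a unit vector orthogonal to it;
* `exists_y` : an element of `SU` multiplying a singular vector by `a`, `σ a = a` or (dimension `≥ 3`) `σ a = -a`.
-/

set_option autoImplicit false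
set_option linter.unusedSectionVars false

namespace Cfsg.Agent.H8.RC

open Module Cfsg.Agent.H749

section geo

variable {K V : Type*} [Field K] [AddCommGroup V] [Module K V] {σ : K →+* K} {b : V → V → K}

theorem bz_right (h : HermF σ b) (u : V) : b u 0 = 0 := by
  have h1 := h.smul 0 0 u
  rw [zero_smul, zero_mul] at h1
  rw [h.symm, h1, map_zero]

theorem b_add_right (h : HermF σ b) (u v w : V) : b u (v + w) = b u v + b u w := by
  rw [h.symm, h.add, map_add, ← h.symm, ← h.symm]

theorem b_smul_right (h : HermF σ b) (c : K) (u v : V) : b u (c • v) = σ c * b u v := by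
  rw [h.symm, h.smul, map_mul, ← h.symm]

/-- the form as a linear functional of the first variable -/
def bl (h : HermF σ b) (w : V) : Dual K V where
  toFun v := b v w
  map_add' u v := h.add u v w
  map_smul' c v := h.smul c v w

theorem bl_apply (h : HermF σ b) (w v : V) : bl h w v = b v w := rfl

variable [FiniteDimensional K V]

/-- the map `v ↦ v + c b(v, w) w` -/
theorem exists_dil (h : HermF σ b) (w : V) (c : K) (hc : c + σ c + c * σ c * b w w = 0)
    (hu : 1 + c * b w w ≠ 0) :
    ∃ g : V ≃ₗ[K] V, g ∈ Iso b ∧ LinearMap.det g.toLinearMap = 1 + c * b w w ∧ ∀ v, g v = v + (c * b v w) • w := by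
  have hU : IsUnit (1 + (c • bl h w) w) := isUnit_iff_ne_zero.2 hu
  have hg : ∀ v, LinearEquiv.dilatransvection hU v = v + (c * b v w) • w := fun v =>
    LinearEquiv.dilatransvection.apply
  refine ⟨LinearEquiv.dilatransvection hU, ?_, ?_, hg⟩
  · intro u v
    show b (LinearEquiv.dilatransvection hU u) (LinearEquiv.dilatransvection hU v) = b u v
    rw [hg, hg, h.add, b_add_right h, b_add_right h, h.smul, h.smul, b_smul_right h, b_smul_right h, map_mul,
      ← h.symm v w]
    linear_combination (b u w * b w v) * hc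
  · rw [LinearEquiv.dilatransvection.coe_toLinearMap, LinearMap.transvection.det]
    rfl

/-- unitary transvections -/
theorem exists_tau (h : HermF σ b) {e : V} (he : b e e = 0) {c : K} (hc : σ c = -c) :
    ∃ g : V ≃ₗ[K] V, g ∈ Iso b ∧ LinearMap.det g.toLinearMap = 1 ∧ ∀ v, g v = v + (c * b v e) • e := by
  obtain ⟨g, h1, h2, h3⟩ := exists_dil h e c (by rw [hc, he]; ring) (by rw [he, mul_zero, add_zero]; exact one_ne_zero)
  exact ⟨g, h1, by rw [h2, he, mul_zero, add_zero], h3⟩

/-- reflections -/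
theorem exists_refl (h : HermF σ b) {w : V} (hw : b w w = 1) :
    ∃ g : V ≃ₗ[K] V, g ∈ Iso b ∧ LinearMap.det g.toLinearMap = -1 ∧ ∀ v, g v = v + (-2 * b v w) • w := by
  have hs : σ (-2) = -2 := by rw [map_neg, map_ofNat]
  have hu : (1 : K) + -2 * b w w ≠ 0 := by
    rw [hw]
    intro h0
    exact one_ne_zero (α := K) (by linear_combination -h0)
  obtain ⟨g, h1, h2, h3⟩ := exists_dil h w (-2) (by rw [hs, hw]; ring) hu
  exact ⟨g, h1, by rw [h2, hw]; ring, h3⟩

/-- the torus -/
theorem exists_torus (h : HermF σ b) (hσ : ∀ a, σ (σ a) = a) (hne : σ ≠ RingHom.id K) {e f : V} (he : b e e = 0)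
    (hf : b f f = 0) (hef : b e f = 1) {a : K} (ha : a ≠ 0) :
    ∃ g : V ≃ₗ[K] V, g ∈ Iso b ∧ LinearMap.det g.toLinearMap = a * (σ a)⁻¹ ∧ g e = a • e := by
  have hH : H91.U.HForm h.toMap := by
    have hs : h.toMap.IsSymm := ⟨fun u v => by rw [h.toMap_apply, h.toMap_apply, h.symm, hσ]⟩
    refine ⟨?_, hs, hσ, hne⟩
    refine ⟨fun u hu => h.nd u fun v => ?_, fun u hu => h.nd u fun v => ?_⟩
    · rw [h.symm]
      have h1 := hu v
      rw [h.toMap_apply] at h1
      rw [h1, map_zero]
    · have h1 := hu v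
      rw [h.toMap_apply] at h1
      exact h1
  have hfe : h.toMap f e = 1 := by rw [h.toMap_apply]; exact hef
  have hef' : h.toMap e f = 1 := by rw [h.toMap_apply, h.symm, hef, map_one]
  obtain ⟨g, h1, h2, -, -, h3⟩ := H450.UF.exists_tor hH (e := e) (f := f) he hf hef' ha
  exact ⟨g, fun u v => by
    have := h1 v u
    rw [h.toMap_apply, h.toMap_apply] at this
    exact this, h3, h2⟩

/-! ### maps commuting with the special unitary group -/

/-- an eigenvector -/
theorem eig_of_comm (h : HermF σ b) {t : K} (ht : σ t = -t) (ht0 : t ≠ 0) (X : V →ₗ[K] V)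
    (hX : ∀ g : V ≃ₗ[K] V, g ∈ Iso b → LinearMap.det g.toLinearMap = 1 → ∀ v, X (g v) = g (X v)) {e : V}
    (he : b e e = 0) : ∃ k : K, X e = k • e := by
  by_cases he0 : e = 0
  · exact ⟨0, by rw [he0, map_zero, smul_zero]⟩
  obtain ⟨g, h1, h2, h3⟩ := exists_tau h he ht
  obtain ⟨v, hv⟩ : ∃ v, b v e ≠ 0 := by
    by_contra hno
    push Not at hno
    exact he0 (h.nd e fun v => by rw [h.symm, hno v, map_zero])
  have h4 := hX g h1 h2 v
  rw [h3, h3, map_add, map_smul, add_right_inj] at h4
  refine ⟨(t * b v e)⁻¹ * (t * b (X v) e), ?_⟩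
  rw [mul_smul, ← h4, smul_smul, inv_mul_cancel₀ (mul_ne_zero ht0 hv), one_smul]

/-- **A linear map commuting with `SU` is a scalar.** -/
theorem scal_of_comm (h : HermF σ b) (hσ : ∀ a, σ (σ a) = a) (hne : σ ≠ RingHom.id K) {t : K} (ht : σ t = -t)
    (ht0 : t ≠ 0) (X : V →ₗ[K] V)
    (hX : ∀ g : V ≃ₗ[K] V, g ∈ Iso b → LinearMap.det g.toLinearMap = 1 → ∀ v, X (g v) = g (X v)) {e f : V}
    (he : b e e = 0) (hf : b f f = 0) (hef : b e f = 1) : ∃ k : K, ∀ v, X v = k • v := by
  have hE := fun {e : V} (he : b e e = 0) => eig_of_comm h ht ht0 X hX he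
  have hfe : b f e = 1 := by rw [h.symm, hef, map_one]
  have he0 : e ≠ 0 := by
    rintro rfl
    rw [h.symm, bz_right h, map_zero] at hef
    exact zero_ne_one hef
  obtain ⟨k, hk⟩ := hE he
  -- hyperbolic partners of `e`
  have key : ∀ f' : V, b f' f' = 0 → b e f' = 1 → X f' = k • f' := by
    intro f' hf' hef'
    have hfe' : b f' e = 1 := by rw [h.symm, hef', map_one]
    obtain ⟨k', hk'⟩ := hE hf'
    have hiso : b (e + t • f') (e + t • f') = 0 := by
      rw [h.add, b_add_right h, b_add_right h, h.smul, h.smul, b_smul_right h, b_smul_right h, he, hf', hef', hfe', ht]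
      ring
    obtain ⟨k'', hk''⟩ := hE hiso
    have h1 : k • e + (t * k') • f' = k'' • e + (t * k'') • f' := by
      rw [← smul_smul t k' f', ← hk', ← hk, ← map_smul, ← map_add, hk'', smul_add, smul_smul, mul_comm k'' t]
    have h2 := congrArg (fun v => b v f') h1
    have h3 := congrArg (fun v => b v e) h1
    simp only [h.add, h.smul, he, hf', hef', hfe', mul_one, mul_zero, add_zero, zero_add] at h2 h3
    have h4 : k' = k'' := mul_left_cancel₀ ht0 h3
    rw [hk', h4, h2]
  refine ⟨k, fun v => ?_⟩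
  have hXf := key f hf hef
  -- decomposition
  set w := v - b v f • e - b v e • f with hw
  have hv : v = b v f • e + b v e • f + w := by rw [hw]; abel
  have hwe : b w e = 0 := by
    have : b w e + b v f * b e e + b v e * b f e = b v e := by
      rw [← h.smul, ← h.smul, ← h.add, ← h.add, hw]
      congr 1
      abel
    rw [he, hfe] at this
    linear_combination this
  have hwf : b w f = 0 := by
    have : b w f + b v f * b e f + b v e * b f f = b v f := by
      rw [← h.smul, ← h.smul, ← h.add, ← h.add, hw]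
      congr 1
      abel
    rw [hef, hf] at this
    linear_combination this
  have hew : b e w = 0 := by rw [h.symm, hwe, map_zero]
  have hfw : b f w = 0 := by rw [h.symm, hwf, map_zero]
  obtain ⟨c, hc⟩ := ClassicalGeometry.HermWitt.trace_surj σ hne hσ (-b w w) (by rw [map_neg, ← h.symm])
  have h1 : b (w + f + c • e) (w + f + c • e) = 0 := by
    simp only [h.add, b_add_right h, h.smul, b_smul_right h, he, hf, hef, hfe, hwe, hwf, hew, hfw]
    linear_combination hc
  have h2 : b e (w + f + c • e) = 1 := by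
    simp only [b_add_right h, b_smul_right h, he, hef, hew]
    ring
  have h3 := key _ h1 h2
  rw [map_add, map_add, map_smul, hk, hXf] at h3
  have hXw : X w = k • w := by
    have h4 : X w = k • (w + f + c • e) - k • f - c • k • e := by
      rw [← h3]; abel
    rw [h4, smul_add, smul_add, smul_comm c k e]
    abel
  conv_lhs => rw [hv]
  rw [map_add, map_add, map_smul, map_smul, hk, hXf, hXw, smul_comm _ k e, smul_comm _ k f, ← smul_add, ← smul_add, ← hv]

/-! ### hyperbolic pairs -/

variable [Finite K]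

/-- orthonormal vectors -/
theorem exists_on (h : HermF σ b) (hσ : ∀ a, σ (σ a) = a) (hne : σ ≠ RingHom.id K) {m : ℕ} (hm : m ≤ finrank K V) :
    ∃ w : Fin m → V, ∀ i l, b (w i) (w l) = if i = l then 1 else 0 := by
  have hH : H91.U.HForm h.toMap := by
    have hs : h.toMap.IsSymm := ⟨fun u v => by rw [h.toMap_apply, h.toMap_apply, h.symm, hσ]⟩
    refine ⟨?_, hs, hσ, hne⟩
    refine ⟨fun u hu => h.nd u fun v => ?_, fun u hu => h.nd u fun v => ?_⟩
    · rw [h.symm]
      have h1 := hu v
      rw [h.toMap_apply] at h1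
      rw [h1, map_zero]
    · have h1 := hu v
      rw [h.toMap_apply] at h1
      exact h1
  obtain ⟨w, hw⟩ := H450.UF.exists_orthonormal hH hm
  refine ⟨w, fun i l => ?_⟩
  have h1 := hw l i
  rw [h.toMap_apply] at h1
  rw [h1]
  simp only [eq_comm]

theorem exists_hyp (h : HermF σ b) (hσ : ∀ a, σ (σ a) = a) (hne : σ ≠ RingHom.id K) (h2 : (2 : K) ≠ 0) {u v : V}
    (hu : b u u = 1) (hv : b v v = 1) (huv : b u v = 0) :
    ∃ e f : V, b e e = 0 ∧ b f f = 0 ∧ b e f = 1 ∧ ∀ w, b w u = 0 → b w v = 0 → b w e = 0 ∧ b w f = 0 := by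
  obtain ⟨c, -, hc⟩ := ClassicalGeometry.HermWitt.norm_surj σ hne hσ (-1) (by rw [map_neg, map_one])
    (neg_ne_zero.2 one_ne_zero)
  have hvu : b v u = 0 := by rw [h.symm, huv, map_zero]
  have hs2 : σ (2⁻¹) = 2⁻¹ := by rw [map_inv₀, map_ofNat]
  refine ⟨u + c • v, (2⁻¹ : K) • (u + (-c) • v), ?_, ?_, ?_, ?_⟩
  · simp only [h.add, b_add_right h, h.smul, b_smul_right h, hu, hv, huv, hvu]
    linear_combination hc
  · simp only [h.add, b_add_right h, h.smul, b_smul_right h, hu, hv, huv, hvu, hs2, map_neg]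
    linear_combination (2⁻¹ * 2⁻¹ : K) * hc
  · simp only [h.add, b_add_right h, h.smul, b_smul_right h, hu, hv, huv, hvu, hs2, map_neg]
    have h3 : (2⁻¹ : K) * 2 = 1 := inv_mul_cancel₀ h2
    linear_combination h3 - (2⁻¹ : K) * hc
  · intro w h3 h4
    constructor
    · rw [b_add_right h, b_smul_right h, h3, h4, mul_zero, add_zero]
    · rw [b_smul_right h, b_add_right h, b_smul_right h, h3, h4, mul_zero, add_zero, mul_zero]

/-- **The element `y`.** -/
theorem exists_y (h : HermF σ b) (hσ : ∀ a, σ (σ a) = a) (hne : σ ≠ RingHom.id K) (h2 : (2 : K) ≠ 0) {a : K}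
    (ha : a ≠ 0) (hd : 2 ≤ finrank K V) (had : σ a = a ∨ (3 ≤ finrank K V ∧ σ a = -a)) :
    ∃ (e f : V) (g : V ≃ₗ[K] V), b e e = 0 ∧ b f f = 0 ∧ b e f = 1 ∧ g ∈ Iso b ∧ LinearMap.det g.toLinearMap = 1 ∧
      g e = a • e := by
  rcases had with had | ⟨h3, had⟩
  · obtain ⟨w, hw⟩ := exists_on h hσ hne hd
    obtain ⟨e, f, he, hf, hef, -⟩ := exists_hyp h hσ hne h2 (u := w 0) (v := w 1) (by rw [hw]; simp) (by rw [hw]; simp)
      (by rw [hw]; simp)
    obtain ⟨g, hg1, hg2, hg3⟩ := exists_torus h hσ hne he hf hef ha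
    exact ⟨e, f, g, he, hf, hef, hg1, by rw [hg2, had, mul_inv_cancel₀ ha], hg3⟩
  · obtain ⟨w, hw⟩ := exists_on h hσ hne h3
    obtain ⟨e, f, he, hf, hef, hp⟩ := exists_hyp h hσ hne h2 (u := w 0) (v := w 1) (by rw [hw]; simp)
      (by rw [hw]; simp) (by rw [hw]; simp)
    obtain ⟨hwe, -⟩ := hp (w 2) (by rw [hw]; simp) (by rw [hw]; simp)
    obtain ⟨g, hg1, hg2, hg3⟩ := exists_torus h hσ hne he hf hef ha
    obtain ⟨r, hr1, hr2, hr3⟩ := exists_refl h (w := w 2) (by rw [hw]; simp)
    have hre : r e = e := by rw [hr3, h.symm (w 2) e, hwe, map_zero, mul_zero, zero_smul, add_zero]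
    refine ⟨e, f, r.trans g, he, hf, hef, ?_, ?_, ?_⟩
    · intro x y
      show b (g (r x)) (g (r y)) = b x y
      rw [hg1, hr1]
    · show LinearMap.det (g.toLinearMap ∘ₗ r.toLinearMap) = 1
      rw [LinearMap.det_comp, hg2, hr2, had, inv_neg]
      have h5 := mul_inv_cancel₀ ha
      linear_combination h5
    · show g (r e) = a • e
      rw [hre, hg3]

end geo

end Cfsg.Agent.H8.RC
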