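import Cfsg.Agent.H8.RC.HermM
import Cfsg.Agent.H8.RC.HermG
import Cfsg.Agent.H579.RC.Line

/-!
# S3510, row D, box D6: `dead_her` (helper8)

`K = F[θ]`, `θ² = δ` not a square, `θ* = -θ`: the lifts commute with `θ`, at most one is not a `K`-scalar.
M-rule with `SU(V)`, then the line rule for `c ↦ (v ↦ v + c h(e, v) e)`, `e` singular.
-/

set_option autoImplicit false
set_option linter.unusedSectionVars false
open Cfsg

namespace Cfsg.Agent.H8.RC

open Module MulAction Cfsg.Agent.H749 Cfsg.Agent.H520.RC Cfsg.Agent.H106.RC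
open Cfsg.Agent.ClassicalGeometry.PSUAutBasic

section line

variable {F K V : Type*} [Field F] [Field K] [Algebra F K] [AddCommGroup V] [Module F V] [Module K V]
  [IsScalarTower F K V] {B : LinearMap.BilinForm F V} {σ : K →+* K} {t : K}

/-- `v ↦ v + (k h(e, v)) e` -/
def ls (hB : NAlt B) (hQ : Quad F K σ t) (hs : ∀ u v : V, B (t • u) v = - B u (t • v)) {e : V}
    (he : hf B t e e = 0) (k : K) : Sp B :=
  have hH := hermF hB hQ hs
  have h0 : ∀ c : K, hf B t e (c • e) = 0 := fun c => by rw [b_smul_right hH, he, mul_zero]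
  ⟨{ toFun := fun v => v + (k * hf B t e v) • e
     invFun := fun v => v - (k * hf B t e v) • e
     left_inv := fun v => by
       show (v + (k * hf B t e v) • e) - (k * hf B t e (v + (k * hf B t e v) • e)) • e = v
       rw [b_add_right hH, h0, add_zero, add_sub_cancel_right]
     right_inv := fun v => by
       show (v - (k * hf B t e v) • e) + (k * hf B t e (v - (k * hf B t e v) • e)) • e = v
       rw [sub_eq_add_neg v, ← neg_smul, b_add_right hH, h0, add_zero, neg_smul, neg_add_cancel_right]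
     map_add' := fun u v => by
       rw [b_add_right hH, mul_add, add_smul]
       abel
     map_smul' := fun a v => by
       rw [RingHom.id_apply, smul_add, ← algebraMap_smul K a v, b_smul_right hH, hQ.fix, ← algebraMap_smul K a (_ • e),
         smul_smul]
       congr 2
       ring }, by
    intro u v
    show B (u + (k * hf B t e u) • e) (v + (k * hf B t e v) • e) = B u v
    have h1 : B ((k * hf B t e u) • e) v = B ((k * hf B t e v) • e) u := by
      refine eq_of_hf hQ ?_
      rw [hH.smul, hH.smul]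
      ring
    have h2 : B ((k * hf B t e u) • e) ((k * hf B t e v) • e) = B (0 : V) 0 := by
      refine eq_of_hf hQ ?_
      rw [hH.smul, b_smul_right hH, he, bz_right hH]
      ring
    rw [map_add, map_add, LinearMap.add_apply, LinearMap.add_apply, h1, h2, map_zero, add_zero,
      hB.swap u ((k * hf B t e v) • e)]
    ring⟩

variable (hB : NAlt B) (hQ : Quad F K σ t) (hs : ∀ u v : V, B (t • u) v = - B u (t • v)) {e : V}
    (he : hf B t e e = 0)

theorem ls_apply (k : K) (v : V) : (ls hB hQ hs he k).1 v = v + (k * hf B t e v) • e := rfl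

theorem ls_add (k k' : K) : ls hB hQ hs he (k + k') = ls hB hQ hs he k * ls hB hQ hs he k' := by
  have hH := hermF hB hQ hs
  apply Subtype.ext
  apply LinearEquiv.ext
  intro v
  show (ls hB hQ hs he (k + k')).1 v = (ls hB hQ hs he k).1 ((ls hB hQ hs he k').1 v)
  rw [ls_apply, ls_apply, ls_apply, b_add_right hH, b_smul_right hH, he, mul_zero, add_zero, add_mul, add_smul]
  abel

/-- conjugates -/
theorem cj_ls {M : SS B} (hl : M.IsLin) (hc : ∀ v, M (t • v) = t • M v) {c : K} (hce : M e = c • e)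
    (k : K) : SS.cj M (ls hB hQ hs he k) = ls hB hQ hs he (c * c * (algebraMap F K M.l)⁻¹ * k) := by
  have hH := hermF hB hQ hs
  have hl0 : algebraMap F K M.l ≠ 0 := (map_ne_zero (algebraMap F K)).2 M.hl
  apply SS.cj_eq
  intro v
  rw [ls_apply, ls_apply, M.map_add]
  congr 1
  have h1 : c * hf B t e (M v) = algebraMap F K M.l * hf B t e v := by
    rw [← hH.smul, ← hce, hf_lift M hl hc]
  have h2 : M ((k * hf B t e v) • e) = (k * hf B t e v) • M e := (klin hQ M hl hc).map_smul _ _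
  rw [h2, hce, smul_smul]
  congr 1
  have h3 : hf B t e v = (algebraMap F K M.l)⁻¹ * (c * hf B t e (M v)) := by
    rw [h1, inv_mul_cancel_left₀ hl0]
  rw [h3]
  ring

end line

section main

variable {F K V : Type} [Field F] [Finite F] [Field K] [Fintype K] [Algebra F K] [AddCommGroup V] [Module F V]
  [Module K V] [IsScalarTower F K V] [FiniteDimensional F V] [FiniteDimensional K V]
  {B : LinearMap.BilinForm F V} {σ : K →+* K} {t : K}
  {G : Type} [Group G] [Finite G] {Ω : Type} [Finite Ω] [Nonempty Ω] [MulAction G Ω]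
  {N : Subgroup G} {ρ : ↥(Sp B) →* G} {ι : Type} [Finite ι] {x : ι → G} {r : ι → ℕ} {M : ι → SS B}

theorem quasi {q n : ℕ} (hK : Fintype.card K = q ^ 2) (hq : q ≠ 2) (hn : 3 ≤ n ∨ (n = 2 ∧ 4 ≤ q)) :
    IsSimpleGroup (PSU n K q) ∧ ¬ IsMulCommutative (PSU n K q) ∧ commutator (SU n K q) = ⊤ := by
  rcases hn with hn | ⟨rfl, h4⟩
  · have h4 := LieClassical.HermPerfect.commutator_SU_eq_top hK hn (fun h => hq h.2)
    exact ⟨LieClassical.HermSimple.isSimpleGroup_of_perfect hK hn h4,
      Cfsg.Agent.H189.SN.psu_nc hK hn (fun h => hq h.2), h4⟩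
  · exact ⟨H452.RC.simple_two hK h4, H452.RC.nc_two hK h4, H452.RC.comm_two hK h4⟩

/-- **`dead_her`, abstract form.** -/
theorem her_core (E : SpEnv Ω N ρ) (h2 : (2 : F) ≠ 0) (hx : PF x r) (hcov : Cov Ω x)
    (hM : ∀ i, Lf ρ (x i) (M i)) (hl : ∀ i, (M i).IsLin) (hQ : Quad F K σ t)
    (hs : ∀ u v : V, B (t • u) v = - B u (t • v)) (hcm : ∀ i v, M i (t • v) = t • M i v)
    (hsc : ∀ i i', (¬ ∃ k : K, ∀ v, M i v = k • v) → (¬ ∃ k : K, ∀ v, M i' v = k • v) → i = i') {q : ℕ}
    (hK : Fintype.card K = q ^ 2)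
    (hq : Nat.card F = q) (hq2 : q ≠ 2) (hd : 3 ≤ finrank K V ∨ (finrank K V = 2 ∧ 4 ≤ q)) : False := by
  classical
  obtain ⟨hS, hSn, hperf⟩ := quasi (K := K) hK hq2 hd
  obtain ⟨j, hj, hj1, hj2⟩ := exists_SU (n := finrank K V) E.form hQ h2 hs hK rfl
  have hH := hermF E.form hQ hs
  have hσ2 := hQ.invol
  have hne := hQ.ne_id h2
  have h2K : (2 : K) ≠ 0 := by
    have := (map_ne_zero (algebraMap F K)).2 h2
    rwa [map_ofNat] at this
  -- conjugates
  have hconj : ∀ i s, ∃ s', SS.cj (M i) (j s) = j s' := by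
    intro i s
    obtain ⟨g, hg1, hg2, hg3⟩ := hj1 s
    obtain ⟨g', hg1', hg2', hg3'⟩ := conj_klin hQ (M i) (hl i) (hcm i) hg1 hg2
    obtain ⟨s', hs'⟩ := hj2 g' hg1' hg2'
    refine ⟨s', SS.cj_eq fun v => ?_⟩
    rw [hs', hg3', hg3]
  have hcen : ∀ i, (∃ k : K, ∀ v, M i v = k • v) → ∀ s, x i * ρ (j s) = ρ (j s) * x i := by
    rintro i ⟨k, hk⟩
    rw [E.cent_iff (hM i) j hperf]
    intro s v
    obtain ⟨g, -, -, hg3⟩ := hj1 s
    rw [hk, hk, hg3, hg3, map_smul]
  -- the M-rule
  set κ : SU (finrank K V) K q →* G := ρ.comp j with hκ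
  have hrule : ∀ ω : Ω, (∀ p, κ p • ω = ω) ∨ ∃ i, (∀ p, x i * κ p = κ p * x i) ∧ x i • ω = ω := by
    intro ω
    refine H380.RC.mrule_hom_pf hS hSn κ (by rw [← commutator_def]; exact hperf) (pr (finrank K V) K q) pr_surjective
      ?_ ?_ hx ?_ (Or.inr ?_) hcov ω
    · intro s hs'
      rw [MonoidHom.mem_ker] at hs' ⊢
      rw [pr_eq_one_iff, Subgroup.mem_center_iff]
      intro s'
      apply hj
      rw [map_mul, map_mul]
      exact scal_central ((E.ker _).1 hs') (j s')
    · intro s hs'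
      rw [MonoidHom.mem_ker, pr_eq_one_iff] at hs'
      exact hs'
    · intro i s
      obtain ⟨s', hs'⟩ := hconj i s
      exact ⟨s', by rw [hκ, MonoidHom.comp_apply, MonoidHom.comp_apply, hM i, hs']⟩
    · by_cases hex : ∃ i, ¬ ∃ k : K, ∀ v, M i v = k • v
      · obtain ⟨i₀, hi₀⟩ := hex
        refine ⟨i₀, fun i hi s => hcen i ?_ s⟩
        by_contra hco
        exact hi (hsc i i₀ hco hi₀)
      · push Not at hex
        obtain ⟨i₀, -⟩ := hcov ω
        exact ⟨i₀, fun i _ s => hcen i (hex i) s⟩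
  -- the element `y`
  have ht0 := hQ.t_ne
  obtain ⟨a, ha0, ha2, had⟩ : ∃ a : K, a ≠ 0 ∧ a * a ≠ 1 ∧ (σ a = a ∨ (3 ≤ finrank K V ∧ σ a = -a)) := by
    rcases hd with h3 | ⟨-, h4⟩
    · refine ⟨t, ht0, ?_, Or.inr ⟨h3, hQ.neg⟩⟩
      intro h
      have h5 : (t - 1) * (t + 1) = 0 := by linear_combination h
      rcases mul_eq_zero.1 h5 with h6 | h6
      · exact one_ne_zero (hQ.ind (-1) 1 (by rw [map_neg, map_one]; linear_combination h6)).2
      · exact one_ne_zero (hQ.ind 1 1 (by rw [map_one]; linear_combination h6)).2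
    · have := Fintype.ofFinite F
      have h1 : ({0, 1, -1} : Finset F).card < Fintype.card F := by
        refine lt_of_le_of_lt Finset.card_le_three ?_
        rw [← Nat.card_eq_fintype_card, hq]
        omega
      obtain ⟨b, hb⟩ := Finset.exists_mem_notMem_of_card_lt_card (s := ({0, 1, -1} : Finset F)) (t := Finset.univ)
        (by rwa [Finset.card_univ])
      have hb' := hb.2
      simp only [Finset.mem_insert, Finset.mem_singleton, not_or] at hb'
      refine ⟨algebraMap F K b, (map_ne_zero (algebraMap F K)).2 hb'.1, ?_, Or.inl (hQ.fix b)⟩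
      intro h
      rw [← map_mul, map_eq_one_iff (algebraMap F K) (algebraMap F K).injective] at h
      have h5 : (b - 1) * (b + 1) = 0 := by linear_combination h
      rcases mul_eq_zero.1 h5 with h6 | h6
      · exact hb'.2.1 (sub_eq_zero.1 h6)
      · exact hb'.2.2 (eq_neg_of_add_eq_zero_left h6)
  obtain ⟨e, f, g, he, hf', hef, hg1, hg2, hge⟩ := exists_y hH hσ2 hne h2K ha0 (by omega) had
  obtain ⟨sy, hsy⟩ := hj2 g hg1 hg2
  have he0 : e ≠ 0 := by
    rintro rfl
    rw [hH.symm, bz_right hH, map_zero] at hef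
    exact zero_ne_one hef
  -- the members centralising `SU` are `K`-scalars
  have hscal : ∀ i, (∀ p, x i * κ p = κ p * x i) → ∃ c : K, c ≠ 0 ∧ (∀ v, M i v = c • v) ∧
      c * c * (algebraMap F K (M i).l)⁻¹ ≠ 1 := by
    intro i hi
    have h3 := (E.cent_iff (hM i) j hperf).1 hi
    obtain ⟨c, hc⟩ := scal_of_comm hH hσ2 hne hQ.neg ht0 (klin hQ (M i) (hl i) (hcm i)).toLinearMap (by
      intro g hg1 hg2 v
      obtain ⟨s, hs'⟩ := hj2 g hg1 hg2
      show M i (g v) = g (M i v)
      rw [← hs', ← hs', h3]) he hf' hef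
    have hc' : ∀ v, M i v = c • v := hc
    have hl1 : algebraMap F K (M i).l = c * σ c := by
      have h4 := hf_lift (M i) (hl i) (hcm i) e f
      rw [hc', hc', hH.smul, b_smul_right hH, hef] at h4
      linear_combination -h4
    have hc0 : c ≠ 0 := by
      rintro rfl
      apply he0
      apply (M i).injective
      rw [hc', zero_smul, (M i).map_zero]
    have hsc0 : σ c ≠ 0 := (map_ne_zero σ).2 hc0
    refine ⟨c, hc0, hc', ?_⟩
    intro h4
    rw [hl1, mul_inv_eq_one₀ (mul_ne_zero hc0 hsc0)] at h4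
    have h5 : c = σ c := mul_left_cancel₀ hc0 h4
    obtain ⟨b, rfl⟩ := hQ.mem_of_fix h2 h5.symm
    apply hx.ne i
    rw [E.eq_one_iff (hM i)]
    refine ⟨b, fun h6 => hc0 (by rw [h6, map_zero]), fun v => ?_⟩
    rw [hc', algebraMap_smul]
  -- the line rule
  let I := {i : ι // ∀ p, x i * κ p = κ p * x i}
  have hI : ∀ i : I, ∃ c : K, c ≠ 0 ∧ (∀ v, M i.1 v = c • v) ∧ c * c * (algebraMap F K (M i.1).l)⁻¹ ≠ 1 :=
    fun i => hscal i.1 i.2
  choose cc hcc0 hcc hcc1 using hI
  refine H579.RC.line_rule E.env (R := K) (κ := Option I) (z := fun o => o.elim (κ sy) fun i => x i.1)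
    (a := fun k => ρ (ls E.form hQ hs he k))
    (ν := fun o => o.elim (a * a) fun i => cc i * cc i * (algebraMap F K (M i.1).l)⁻¹) ?_ ?_ ?_ ?_ ?_ ?_
  · rintro (_ | i) (_ | k)
    · rfl
    · exact (k.2 sy).symm
    · exact i.2 sy
    · exact hx.comm _ _
  · intro ω
    rcases hrule ω with h | ⟨i, hi, hω⟩
    · exact ⟨none, h sy⟩
    · exact ⟨some ⟨i, hi⟩, hω⟩
  · intro c d
    rw [ls_add, map_mul]
  · refine ⟨1, ?_⟩
    rw [Ne, E.ker]
    rintro ⟨b, hb⟩
    have h3 := hb e
    rw [ls_apply, he, mul_zero, zero_smul, add_zero] at h3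
    have hb1 : b = 1 := by
      have h4 : (b - 1) • e = 0 := by rw [sub_smul, ← h3, one_smul, sub_self]
      rcases smul_eq_zero.1 h4 with h5 | h5
      · exact sub_eq_zero.1 h5
      · exact absurd h5 he0
    have h4 := hb f
    rw [ls_apply, hef, hb1, one_smul, mul_one, one_smul, add_eq_left] at h4
    exact he0 h4
  · rintro (_ | i)
    · exact ha2
    · exact hcc1 i
  · rintro (_ | i) c
    · show ρ (j sy) * _ * (ρ (j sy))⁻¹ = ρ (ls E.form hQ hs he (a * a * c))
      rw [Lf.tg (ρ := ρ) (j sy), cj_ls E.form hQ hs he (SS.tg_lin _) (fun v => by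
        rw [SS.tg_apply, SS.tg_apply, hsy, hsy, map_smul]) (c := a) (by rw [SS.tg_apply, hsy, hge])]
      have h5 : (SS.tg (j sy)).l = 1 := rfl
      rw [h5, map_one, inv_one, mul_one]
    · show x i.1 * _ * (x i.1)⁻¹ = _
      rw [hM i.1, cj_ls E.form hQ hs he (hl i.1) (hcm i.1) (c := cc i) (hcc i e)]
      rfl

end main

section final

variable {F V : Type} [Field F] [Finite F] [AddCommGroup V] [Module F V] [FiniteDimensional F V]
  {B : LinearMap.BilinForm F V} {G : Type} [Group G] [Finite G] {Ω : Type} [Finite Ω] [Nonempty Ω] [MulAction G Ω]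
  {N : Subgroup G} {ρ : ↥(Sp B) →* G} {ι : Type} [Finite ι] {x : ι → G} {r : ι → ℕ} {M : ι → SS B}

/-- the quadratic algebra -/
theorem quad_qa (F : Type*) [Field F] (δ : F) [Fact (∀ c : F, c ^ 2 ≠ δ + 0 * c)] :
    Quad F (QuadraticAlgebra F δ 0) (starRingEnd (QuadraticAlgebra F δ 0)) QuadraticAlgebra.omega where
  fix a := by
    rw [starRingEnd_apply]
    apply QuadraticAlgebra.ext <;> simp
  neg := by
    rw [starRingEnd_apply]
    apply QuadraticAlgebra.ext <;> simp
  dec k := ⟨k.re, k.im, by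
    apply QuadraticAlgebra.ext <;> simp⟩
  ind a b h := by
    have h1 := congrArg QuadraticAlgebra.re h
    have h3 := congrArg QuadraticAlgebra.im h
    simp only [QuadraticAlgebra.re_add, QuadraticAlgebra.im_add, QuadraticAlgebra.re_mul, QuadraticAlgebra.im_mul,
      QuadraticAlgebra.omega_re, QuadraticAlgebra.omega_im, QuadraticAlgebra.re_zero, QuadraticAlgebra.im_zero] at h1 h3
    simp at h1 h3
    exact ⟨h1, h3⟩
  sq := ⟨δ, by
    apply QuadraticAlgebra.ext <;> simp⟩

/-- **Box D6, hermitian case.** -/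
theorem dead_her (E : SpEnv Ω N ρ) (h2 : (2 : F) ≠ 0) (hx : PF x r) (hcov : Cov Ω x)
    (hM : ∀ i, Lf ρ (x i) (M i)) (hl : ∀ i, (M i).IsLin) (θ : Module.End F V) {δ : F} (hδ : ¬ IsSquare δ)
    (hsq : ∀ v, θ (θ v) = δ • v) (hθs : ∀ u v, B (θ u) v = - B u (θ v)) (hcm : ∀ i v, M i (θ v) = θ (M i v))
    (hs : ∀ i j, (¬ ∃ a b : F, ∀ v, M i v = a • v + b • θ v) → (¬ ∃ a b : F, ∀ v, M j v = a • v + b • θ v) → i = j)
    (hex : ¬ (Nat.card F = 3 ∧ finrank F V = 4)) : False := by
  classical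
  have hfact : Fact (∀ c : F, c ^ 2 ≠ δ + 0 * c) := ⟨fun c h => hδ ⟨c, by
    rw [zero_mul, add_zero] at h
    rw [← h, pow_two]⟩⟩
  let K := QuadraticAlgebra F δ 0
  let φ : K →ₐ[F] Module.End F V := QuadraticAlgebra.lift ⟨θ, by
    apply LinearMap.ext
    intro v
    show θ (θ v) = δ • v + (0 : F) • θ v
    rw [hsq, zero_smul, add_zero]⟩
  have hφ : ∀ (a b : F) (v : V), φ ⟨a, b⟩ v = a • v + b • θ v := by
    intro a b v
    have h1 : (⟨a, b⟩ : K) = algebraMap F K a + b • QuadraticAlgebra.omega := by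
      rw [QuadraticAlgebra.mk_eq_add_smul_omega]
    have h3 : φ QuadraticAlgebra.omega = θ := by
      show QuadraticAlgebra.lift _ _ = _
      simp
    rw [h1, map_add, AlgHom.commutes, map_smul, h3]
    rfl
  let : Module K V := Module.compHom V φ.toRingHom
  have hsm : ∀ (k : K) (v : V), k • v = k.re • v + k.im • θ v := fun k v => hφ k.re k.im v
  have : IsScalarTower F K V := ⟨fun a k v => by
    rw [hsm, hsm, smul_add, smul_smul, smul_smul]
    rfl⟩
  let t : K := QuadraticAlgebra.omega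
  have htv : ∀ v : V, t • v = θ v := fun v => by
    rw [hsm]
    show (0 : F) • v + (1 : F) • θ v = θ v
    rw [zero_smul, one_smul, zero_add]
  have hQ : Quad F K (starRingEnd K) t := quad_qa F δ
  have : Finite K := Finite.of_equiv (F × F) (QuadraticAlgebra.equivProd δ 0).symm
  have := Fintype.ofFinite K
  have hcard : Fintype.card K = (Nat.card F) ^ 2 := by
    rw [← Nat.card_eq_fintype_card, Nat.card_congr (QuadraticAlgebra.equivProd δ 0), Nat.card_prod, pow_two]
  have : FiniteDimensional K V := Module.Finite.of_restrictScalars_finite F K V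
  have hdim : 2 * finrank K V = finrank F V := by
    rw [← Module.finrank_mul_finrank F K V, QuadraticAlgebra.finrank_eq_two]
  have hq2 : Nat.card F ≠ 2 := by
    intro h
    have := Fintype.ofFinite F
    apply h2
    have h3 := FiniteField.cast_card_eq_zero F
    rw [← Nat.card_eq_fintype_card, h] at h3
    exact_mod_cast h3
  have hq1 : 1 < Nat.card F := Finite.one_lt_card
  have h4 := E.dim
  have hsc : ∀ i, (¬ ∃ k : K, ∀ v, M i v = k • v) → ¬ ∃ a b : F, ∀ v, M i v = a • v + b • θ v := by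
    rintro i hi ⟨a, b, hab⟩
    exact hi ⟨⟨a, b⟩, fun v => by rw [hab, hsm]⟩
  refine her_core (K := K) E h2 hx hcov hM hl hQ (fun u v => by rw [htv, htv, hθs]) (fun i v => by
    rw [htv, htv, hcm]) (fun i i' hi hi' => hs i i' (hsc i hi) (hsc i' hi')) hcard rfl hq2 ?_
  by_cases h5 : finrank F V = 4
  · right
    refine ⟨by omega, ?_⟩
    have h6 : Nat.card F ≠ 3 := fun h6 => hex ⟨h6, h5⟩
    omega
  · left
    omega

end final

end Cfsg.Agent.H8.RC
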